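import Cfsg.Agent.Lib.ClMax.SpTv
import Cfsg.Agent.Lib.Dickson.TwoTransv
import Cfsg.Agent.Lib.RegUnip.SUTor

/-!
Full transvection groups in a subgroup of a symplectic group: two planar criteria and the passage
to the whole space along a cyclic vector.
-/

set_option autoImplicit false

namespace CfsgLib.RegUnip

open CfsgLib.ClMax Module
open scoped MatrixGroups

variable {F : Type*} [Field F] {V : Type*} [AddCommGroup V] [Module F V]
  {B : LinearMap.BilinForm F V} {M : Subgroup (V ≃ₗ[F] V)}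

theorem full_of_cyclic [FiniteDimensional F V] (hA : B.IsAlt) (hB : B.Nondegenerate)
    (hM : M ≤ spIso B) {c : F} (hc0 : c ≠ 0) (hc1 : c ≠ 1) {e f : V} (he : Full B M e)
    (hf : Full B M f) (hef : B e f ≠ 0) {u : V ≃ₗ[F] V} (hu : u ∈ M)
    (h : B (u f) f ≠ 0 ∨ u e = e) {d : ℕ} (hd : finrank F V = d + 1)
    (h0 : (nil u ^ (d + 1)) f = 0) (h1 : (nil u ^ d) f ≠ 0) (x : V) : Full B M x := by
  classical
  refine full_of_connected hA hB hM hc0 hc1 he hf hef (fun U heU hfU hU => ?_) x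
  have h2 : ∃ i : ℕ, (u ^ i) f ∉ U := by
    by_contra hh
    push Not at hh
    have := succ_le_finrank (nil u) h0 h1 (S := ⨅ i : ℕ, U.comap (u ^ i : V ≃ₗ[F] V).toLinearMap)
      (by simpa using hh) fun a ha => by
        simp only [Submodule.mem_iInf, Submodule.mem_comap, LinearEquiv.coe_coe] at ha ⊢
        intro i
        rw [nil_apply, map_sub, ← LinearEquiv.mul_apply, ← pow_succ]
        exact sub_mem (ha _) (ha _)
    refine hU (Submodule.eq_top_of_finrank_eq (le_antisymm U.finrank_le ?_))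
    exact hd ▸ this.trans (Submodule.finrank_mono (iInf_le_of_le 0 fun a ha => by simpa using ha))
  obtain ⟨j, hj⟩ := Nat.exists_eq_succ_of_ne_zero (n := Nat.find h2) fun h => by
    simpa [h, hfU] using Nat.find_spec h2
  refine ⟨_, hf.conj hM (pow_mem hu (j + 1)), by simpa [hj] using Nat.find_spec h2, ?_⟩
  rcases h with h | h
  · refine ⟨_, not_not.1 (Nat.find_min h2 (m := j) (by omega)), ?_⟩
    rwa [pow_succ, LinearEquiv.mul_apply, hM (pow_mem hu j)]
  · refine ⟨e, heU, ?_⟩
    have h3 : ∀ i : ℕ, (u ^ i) e = e := fun i => by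
      induction i with
      | zero => rfl
      | succ i ih => rw [pow_succ, LinearEquiv.mul_apply, h, ih]
    conv_lhs => rw [← h3 (j + 1), hM (pow_mem hu _)]
    rwa [← hA.neg_eq, neg_ne_zero]

theorem exists_prim [Fintype F] : ∃ g : F, g ≠ 0 ∧ orderOf g = Fintype.card F - 1 ∧
    ∀ c : F, c ≠ 0 → ∃ k : ℕ, g ^ k = c := by
  obtain ⟨g, hg⟩ := IsCyclic.exists_monoid_generator (α := Fˣ)
  refine ⟨g, g.ne_zero, ?_, fun c hc => ?_⟩
  · rw [orderOf_units, orderOf_eq_card_of_forall_mem_powers hg, Nat.card_units,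
      Nat.card_eq_fintype_card]
  · obtain ⟨k, hk⟩ := hg (Units.mk0 c hc)
    exact ⟨k, by simpa using congrArg Units.val hk⟩

/-- Odd characteristic: a transvection and an element acting as a transvection on a plane. -/
theorem full_plane_odd [Fintype F] (h2 : (2 : F) ≠ 0) (hA : B.IsAlt) (hM : M ≤ spIso B) {x f : V}
    {c g : F} (hg0 : g ≠ 0) (hg : orderOf g = Fintype.card F - 1)
    (hg' : ∀ c : F, c ≠ 0 → ∃ k : ℕ, g ^ k = c) (hc : c * B x f = g) (ha : TvIn B M x c)
    {b : V ≃ₗ[F] V} (hb : b ∈ M) (h1 : b x = x + f) (h3 : b f = f) : Full B M x ∧ Full B M f := by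
  let K : Subgroup SL(2, F) :=
    { carrier := {A | ∃ k ∈ M, k x = A 0 0 • x + A 1 0 • f ∧ k f = A 0 1 • x + A 1 1 • f}
      mul_mem' := by
        rintro A A' ⟨k, hk, e1, e2⟩ ⟨k', hk', e3, e4⟩
        refine ⟨k * k', mul_mem hk hk', ?_, ?_⟩ <;>
          simp only [LinearEquiv.mul_apply, e1, e2, e3, e4, map_add, map_smul, SL2.mul_ap] <;> module
      one_mem' := ⟨1, one_mem _, by simp, by simp⟩
      inv_mem' := by
        rintro A ⟨k, hk, e1, e2⟩
        have := SL2.det_eq A
        refine ⟨k⁻¹, inv_mem hk, k.injective ?_, k.injective ?_⟩ <;>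
          simp only [LinearEquiv.coe_inv, LinearEquiv.apply_symm_apply, e1, e2, map_add, map_smul,
            SL2.inv_00, SL2.inv_01, SL2.inv_10, SL2.inv_11] <;> match_scalars <;> grind }
  have hK : K = ⊤ := by
    rcases Dickson.two_transvections h2 hg0 (eq_top_iff.2 fun c _ => by
      by_cases hc : c = 0
      · simp [hc]
      · obtain ⟨k, rfl⟩ := hg' c hc
        exact pow_mem (Subfield.subset_closure (Set.mem_singleton g)) k) with h | h
    · rw [eq_top_iff, ← h.1, Subgroup.closure_le]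
      rintro _ (rfl | rfl)
      · exact ⟨b, hb, by simpa using h1, by simpa using h3⟩
      · obtain ⟨k, hk, e⟩ := ha
        exact ⟨k, hk, by simp [e, hA.self_eq_zero], by simp [e, hc, add_comm]⟩
    · have : g ^ 4 = 1 := by linear_combination (g ^ 2 - 1) * h.2.1
      rw [← orderOf_dvd_iff_pow_eq_one, hg, h.1] at this
      exact absurd this (by decide)
  have hx : Full B M x := full_of_sq hA (left_ne_zero_of_mul (hc ▸ hg0)) fun s => by
    by_cases hs : s = 0
    · simpa [hs] using tvIn_zero x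
    obtain ⟨k, hk, e, -⟩ := hK.ge (Subgroup.mem_top (SL2.dg (Units.mk0 s hs)))
    have := ha.conj hM hk
    rw [e] at this
    exact tvIn_smul.1 (by simpa using this)
  obtain ⟨k, hk, e, -⟩ := hK.ge (Subgroup.mem_top SL2.ww)
  exact ⟨hx, by simpa [e] using hx.conj hM hk⟩

/-- Even characteristic: a transvection and a product of two transvections. -/
theorem full_plane_even [Finite F] (h2 : (2 : F) = 0) (hA : B.IsAlt) (hM : M ≤ spIso B) {e f : V}
    {ρ : F} (h0 : ρ ≠ 0) (h1 : ρ ^ 2 + 1 ≠ 0) (hρ : ∀ c : F, c ≠ 0 → ∃ k : ℕ, (ρ ^ 2) ^ k = c)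
    (hef : B e f = (ρ ^ 2 + 1) / ρ) (ha : TvIn B M e (ρ ^ 4 / (ρ ^ 2 + 1) ^ 2))
    {b : V ≃ₗ[F] V} (hb : b ∈ M) (e1 : b e = e + B f e • f)
    (e2 : b f = f + B e f • (e + B f e • f)) : Full B M e ∧ Full B M f := by
  have hfe : B f e = (ρ ^ 2 + 1) / ρ := by
    rw [← hA.neg_eq, hef]; linear_combination (-(ρ ^ 2 + 1) / ρ) * h2
  rw [hfe] at e1 e2
  rw [hef] at e2
  have h3 : b (e + ρ • f) = ρ ^ 2 • (e + ρ • f) := by
    rw [map_add, map_smul, e1, e2]
    clear e1 e2 ha hρ hef hfe
    match_scalars <;> field_simp <;> grind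
  have h4 : TvIn B M (e + ρ • f) (ρ ^ 4) := by
    obtain ⟨k, hk, e3⟩ := ha.conj hM hb
    have h5 : k e = (ρ ^ 2 + 1) • (e + ρ • f) := by
      rw [e3, e1, map_add, map_smul, LinearMap.add_apply, LinearMap.smul_apply, hA.self_eq_zero, hfe,
        smul_eq_mul]
      clear e1 e2 e3 h3 ha hρ hef hfe
      match_scalars <;> field_simp <;> grind
    have := ha.conj hM hk
    rw [h5, tvIn_smul] at this
    exact this.congr rfl (by field_simp)
  have hp : Full B M (e + ρ • f) := full_of_sq hA (pow_ne_zero 4 h0) fun s => by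
    by_cases hs : s = 0
    · simpa [hs] using tvIn_zero _
    obtain ⟨k, rfl⟩ := hρ s hs
    have := h4.conj hM (pow_mem hb k)
    rwa [pow_apply_of_eigen h3, tvIn_smul] at this
  have hpe : B (e + ρ • f) e ≠ 0 := by simp [hA.self_eq_zero, hfe, h0, h1]
  have he : Full B M e := by
    obtain ⟨k, hk, e3⟩ := ha
    have h5 := hp.conj hM hk
    rw [e3] at h5
    set t := ρ ^ 4 / (ρ ^ 2 + 1) ^ 2 * B e (e + ρ • f) with ht
    have ht0 : t ≠ 0 := by simp [ht, hA.self_eq_zero, hef, h0, h1]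
    have := hp.add_smul hM h5 (by
      rw [map_add (B _), map_smul, hA.self_eq_zero, zero_add]; exact mul_ne_zero ht0 hpe) (-1) 1
    exact Full.of_smul ht0 (by convert this using 1; module)
  exact ⟨he, Full.of_smul h0 (by simpa using hp.add_smul hM he hpe 1 (-1))⟩

end CfsgLib.RegUnip
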