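import Cfsg.Agent.Lib.RegUnip.SpModel
import Cfsg.Agent.Lib.RegUnip.SUMain
import Cfsg.Agent.Lib.Forms.Normal

/-!
Generation of symplectic groups by three conjugate regular unipotent elements.
-/

set_option autoImplicit false

namespace CfsgLib.RegUnip

open CfsgLib.Forms CfsgLib.ClMax Module

variable {F : Type*} [Field F] {R : Type*} [CommRing R] [Algebra F R] {l : R →ₗ[F] F} {ν : R}
  {n : ℕ} {X : Rˣ}

/-- Three conjugates of `ureg l X ε` force all transvections. -/
def Gen (l : R →ₗ[F] F) (X ε : Rˣ) : Prop := ∃ g ∈ spIso (form l), ∃ h ∈ spIso (form l),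
  ∀ M ≤ spIso (form l), ureg l X ε ∈ M → g * ureg l X ε * g⁻¹ ∈ M → h * ureg l X ε * h⁻¹ ∈ M →
    ∀ x, Full (form l) M x

theorem Mod.finite (D : Mod ν l n) : FiniteDimensional F R := Module.finite_of_finrank_eq_succ D.dim

theorem Mod.finrank_prod (D : Mod ν l n) : finrank F (R × R) = 2 * n + 1 + 1 := by
  have := D.finite
  rw [Module.finrank_prod, D.dim]; ring

theorem Mod.exists_eps (D : Mod ν l (n + 1)) (d : F) : ∃ ε : Rˣ, (ε : R) = 1 + d • ν ^ (n + 1) ∧
    ν ^ (n + 1) * ε = ν ^ (n + 1) := by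
  have h : ν ^ (n + 1) * ν ^ (n + 1) = 0 := by
    rw [← pow_add, show n + 1 + (n + 1) = n + 1 + 1 + n by ring, pow_add, D.zero, zero_mul]
  obtain ⟨ε, hε⟩ := (IsNilpotent.smul (a := ν ^ (n + 1)) ⟨2, by rw [sq, h]⟩ d).isUnit_one_add
  exact ⟨ε, hε, by simp [hε, mul_add, h]⟩

theorem l_X (l : R →ₗ[F] F) (ν b : R) (i : ℕ) :
    l (ν ^ i * ((1 + ν) * b)) = l (ν ^ i * b) + l (ν ^ (i + 1) * b) := by
  rw [← map_add]; congr 1; ring

theorem X_pow (ν : R) (i : ℕ) : (1 + ν) * ν ^ i = ν ^ i + ν ^ (i + 1) := by ring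

theorem gen_odd [Fintype F] (D : Mod ν l (n + 1)) (hX : (X : R) = 1 + ν) (h2 : (2 : F) ≠ 0) :
    Gen l X 1 := by
  have := D.finite
  obtain ⟨g, hg0, hg, hg'⟩ := exists_prim (F := F)
  obtain ⟨h, hh, e⟩ := exists_third l X 1 1
  have h1 : l 1 = 0 := by simpa using D.low 0 (by omega)
  refine ⟨_, heis_mem (form_alt l) (ν ^ (n + 1), 0) ((g / 2) • ν ^ n, 0) (by simp [form_apply]) 0,
    h, hh, fun M hM a1 a2 a3 => ?_⟩
  have ha : TvIn (form l) M (ν ^ (n + 1), 0) (-g) := tvIn_of_shift hX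
    (s := fun b => (g / 2 * l (ν ^ n * b)) • ν ^ (n + 1) + (g / 2 * l (ν ^ (n + 1) * b)) • ν ^ n)
    (fun a b => by simp [heis_apply, form_apply, smul_smul, mul_comm, add_assoc]) (fun b => by
      simp only [l_X, mul_add, mul_smul_comm, X_pow, D.zero, zero_mul, map_zero]
      match_scalars <;> field_simp <;> ring) a1 a2
  obtain ⟨hx, hf⟩ := full_plane_odd h2 (form_alt l) hM hg0 hg hg' (f := (0, -1))
    (by simp [form_apply, D.top]) ha (e ▸ mul_mem a3 a1)
    (by simp [tv_apply, form_apply, D.top]) (by simp [tv_apply, form_apply, h1])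
  refine full_of_cyclic (form_alt l) D.form_nondeg hM (neg_ne_zero.2 one_ne_zero)
    (fun h => h2 (by linear_combination -h)) hx hf (by simp [form_apply, D.top]) a1
    (Or.inr (by simp [ureg_apply, mul_comm (X : R), D.top_X hX])) D.finrank_prod
    (by rw [D.reg' hX (by simp)]; rfl) ?_
  have h4 : ν ^ (n + 1) ≠ 0 := fun h => by simpa [h] using D.top
  simp [D.reg hX, D.top, h4]

theorem gen_even [Fintype F] (D : Mod ν l (n + 1)) (hX : (X : R) = 1 + ν) (h2 : (2 : F) = 0)
    (hq : Fintype.card F ≠ 2) : ∃ ε : Rˣ, ν ^ (n + 1) * ε = ν ^ (n + 1) ∧ Gen l X ε := by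
  have := D.finite
  obtain ⟨g, hg0, hg, hg'⟩ := exists_prim (F := F)
  have : CharP F 2 := CharTwo.of_one_ne_zero_of_two_eq_zero one_ne_zero h2
  obtain ⟨ρ, rfl⟩ := FiniteField.isSquare_of_char_two (ringChar.eq F 2) g
  rw [← sq] at hg0 hg hg'
  have h0 : ρ ≠ 0 := fun h => hg0 (by simp [h])
  have h5 : ρ ^ 2 ≠ 1 := fun h => by
    have := Fintype.one_lt_card (α := F)
    rw [h, orderOf_one] at hg; omega
  have h6 : ρ ^ 2 + 1 ≠ 0 := fun h => h5 (by linear_combination h - h2)
  have h7 : (ρ ^ 2 + 1) / ρ ^ 3 ≠ 0 := by simp [h0, h6]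
  have h1 : l 1 = 0 := by simpa using D.low 0 (by omega)
  obtain ⟨ε, hε, hε'⟩ := D.exists_eps (ρ ^ 2)
  obtain ⟨φ, hφ⟩ : ∃ φ : Rˣ, (φ : R) = ((ρ ^ 2 + 1) / ρ ^ 3) • 1 :=
    ⟨Units.map (algebraMap F R : F →* R) (Units.mk0 _ h7), Algebra.algebraMap_eq_smul_one _⟩
  obtain ⟨h, hh, e⟩ := exists_third l X ε φ
  obtain ⟨g, hg, e'⟩ := tvIn_of_scalar (l := l) (X := X) (ε := ε) (inv_ne_zero h6)
  refine ⟨ε, hε', g, hg, h, hh, fun M hM a1 a2 a3 => ?_⟩
  have h8 : l (ε * φ) = (ρ ^ 2 + 1) / ρ := by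
    simp [hε, hφ, h1, D.top]; field_simp
  have h9 : form l (ε, 0) (0, φ) = (ρ ^ 2 + 1) / ρ := by simp [form_apply, h8]
  obtain ⟨hx, hf⟩ := full_plane_even h2 (form_alt l) hM h0 h6 hg' h9
    ((e' M a1 a2).congr rfl (by field_simp; linear_combination (-ρ ^ 4 - ρ ^ 2) * h2))
    (e ▸ mul_mem a3 a1) (by simp [tv_apply, (form_alt l).self_eq_zero])
    (by
      rw [LinearEquiv.mul_apply, tv_apply, tv_apply, map_add, map_smul, (form_alt l).self_eq_zero,
        ← (form_alt l).neg_eq (ε, 0), CharTwo.neg_eq, smul_eq_mul]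
      module)
  have h4 : ν ^ (n + 1) ≠ 0 := fun h => by simpa [h] using D.top
  refine full_of_cyclic (form_alt l) D.form_nondeg hM hg0 h5 hx hf (by simp [h9, h0, h6]) a1
    (Or.inl ?_) D.finrank_prod (by rw [D.reg' hX hε']; rfl)
    (by simp [D.reg hX hε', D.top, h4, hφ, h0, h6])
  have h3 : l (X * ε) ≠ 0 := by
    rw [hε, mul_add, mul_smul_comm, mul_comm _ (ν ^ _), D.top_X hX, hX]
    cases n with
    | zero => simpa [h1, show l ν = 1 by simpa using D.top, add_comm] using h6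
    | succ n => simpa [h1, show l ν = 0 by simpa using D.low 1 (by omega), D.top] using h0
  rw [ureg_apply, form_apply, h8, hφ]
  simp [h3, h0, h6]

theorem gen_two (D : Mod ν l (n + 2)) (hX : (X : R) = 1 + ν) (hF : ∀ c : F, c = 0 ∨ c = 1) :
    ∃ ε : Rˣ, ν ^ (n + 2) * ε = ν ^ (n + 2) ∧ Gen l X ε := by
  have h2 : (2 : F) = 0 := (hF 2).resolve_right fun h => one_ne_zero (by linear_combination h)
  obtain ⟨ε, hε, hε'⟩ := D.exists_eps 1
  rw [one_smul] at hε
  obtain ⟨h, hh, e⟩ := exists_third l X ε 1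
  have hA := form_alt l
  have h1 : l 1 = 0 := by simpa using D.low 0 (by omega)
  refine ⟨ε, hε', _, mul_mem (tv_mem hA (ν ^ (n + 1), 0) 1)
    (heis_mem hA (ν ^ (n + 2), 0) (ν ^ n, 0) (by simp [form_apply]) 0), h, hh,
    fun M hM a1 a2 a3 => ?_⟩
  have full : ∀ {x}, TvIn (form l) M x 1 → Full (form l) M x := fun h d => by
    rcases hF d with rfl | rfl
    exacts [tvIn_zero _, h]
  have hx : Full (form l) M (ν ^ (n + 2), 0) := full (tvIn_of_shift hX
    (s := fun b => l (ν ^ n * b) • ν ^ (n + 2) + l (ν ^ (n + 2) * b) • ν ^ n +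
      l (ν ^ (n + 1) * b) • ν ^ (n + 1))
    (fun a b => by simp [heis_apply, tv_apply, form_apply, add_assoc]) (fun b => by
      simp only [l_X, mul_add, mul_smul_comm, X_pow, D.zero, zero_mul, map_zero]
      match_scalars <;> grind) a1 a2)
  have hb := e ▸ mul_mem a3 a1
  have hf : Full (form l) M (0, 1) := by
    have := hx.conj hM hb
    simpa [tv_apply, form_apply, D.top] using this.add_smul hM hx
      (by simp [tv_apply, form_apply, D.top]) (-1) 1
  have ht : tv hA ((ε : R), 0) 1 ∈ M := by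
    obtain ⟨k, hk, e1⟩ := hf 1
    obtain rfl : k = tv hA (0, 1) 1 := LinearEquiv.ext fun v => by rw [e1, tv_apply]
    exact (mul_mem_cancel_left hk).1 hb
  have hu : levi F X ∈ M := (mul_mem_cancel_right ht).1 a1
  have hu' : ∀ (k : ℕ) {a b : R}, Full (form l) M (a, b) →
      Full (form l) M (X ^ k * a, ((X ^ k)⁻¹ : Rˣ) * b) ∧
      Full (form l) M (((X ^ k)⁻¹ : Rˣ) * a, X ^ k * b) := fun k a b h =>
    ⟨by simpa only [← map_pow, levi_apply, Units.val_pow_eq_pow_val] using
      h.conj hM (pow_mem hu k), by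
      simpa only [← map_pow, ← map_inv, levi_apply, Units.val_pow_eq_pow_val, inv_inv] using
        h.conj hM (inv_mem (pow_mem hu k))⟩
  have all : ∀ S : AddSubgroup R, 1 ∈ S → (∀ a ∈ S, X * a ∈ S) → ∀ a, a ∈ S := by
    intro S s1 s2 a
    have s3 : ∀ i, ∀ c : F, c • ν ^ i ∈ S := fun i c => by
      rcases hF c with rfl | rfl
      · simp
      induction i with
      | zero => simpa using s1
      | succ i ih => convert sub_mem (s2 _ ih) ih using 1; rw [hX, one_smul, one_smul]; ring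
    simpa using add_mem (D.sub_mem S (fun i _ => s3 i) a) (s3 (n + 2) (l a))
  -- the affine hyperplane `l a = 1` of the first Lagrangian subspace
  let T : AddSubgroup R :=
    { carrier := {d | l d = 0 ∧ Full (form l) M (d + ν ^ (n + 2), 0)}
      zero_mem' := ⟨map_zero l, by simpa using hx⟩
      add_mem' := by
        rintro a b ⟨s1, s2⟩ ⟨s3, s4⟩
        have s5 := s2.add hM hf (by simp [form_apply, s1, D.top])
        have s6 := s4.add hM s5 (by simp [form_apply, s3, D.top])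
        have s7 := hx.neg.add hM s6 (by simp [form_apply, D.top])
        have s8 := hf.neg.add hM s7 (by simp [form_apply, s1, s3, D.top])
        exact ⟨by simp [s1, s3], by convert s8 using 1; simp; ring⟩
      neg_mem' := fun {a} ha => by
        rwa [show -a = a by
          rw [neg_eq_iff_add_eq_zero, ← two_smul F a, h2, zero_smul]] }
  have hT : ∀ k j, j + k ≤ n + 1 → l (X ^ j * ν ^ k) = 0 := by
    intro k j
    induction j generalizing k with
    | zero => intro h; simpa using D.low k (by omega)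
    | succ j ih =>
      intro h
      rw [show (X : R) ^ (j + 1) * ν ^ k = X ^ j * ν ^ k + X ^ j * ν ^ (k + 1) by rw [hX]; ring,
        map_add, ih k (by omega), ih (k + 1) (by omega), add_zero]
  have hT' : ∀ k j, j + k ≤ n + 1 → (X : R) ^ j * ν ^ k ∈ T := by
    intro k
    induction k with
    | zero =>
      intro j h
      refine ⟨hT 0 j h, ?_⟩
      have s1 := (hu' j (full (tvIn_of_mem hA ht))).1
      have s2 : (X : R) ^ j * ν ^ (n + 2) = ν ^ (n + 2) := by
        clear s1 h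
        induction j with
        | zero => simp
        | succ j ih => rw [pow_succ', mul_assoc, ih, mul_comm, D.top_X hX]
      simpa [hε, mul_add, s2] using s1
    | succ k ih =>
      intro j h
      convert sub_mem (ih (j + 1) (by omega)) (ih j (by omega)) using 1
      rw [hX]; ring
  have hE : ∀ a, Full (form l) M (a, 0) := by
    have s1 : ∀ a, l a = 1 → Full (form l) M (a, 0) := fun a ha => by
      have := (D.sub_mem T (fun i hi c => by
        rcases hF c with rfl | rfl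
        · simp
        · simpa using hT' i 0 (by omega)) a).2
      simpa [ha] using this
    intro a
    by_cases ha : ∀ k : ℕ, l (X ^ k * a) = 0
    · obtain rfl := D.nondeg (a := a) fun b => by
        simpa using all
          { carrier := {b | ∀ k : ℕ, l (X ^ k * (a * b)) = 0}
            zero_mem' := by simp
            add_mem' := fun s t k => by simp [mul_add, s k, t k]
            neg_mem' := fun s k => by simp [s k] } (by simpa using ha)
          (fun b hb k => by rw [mul_left_comm a, ← mul_assoc, ← pow_succ]; exact hb _) b 0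
      exact full_zero
    · push Not at ha
      obtain ⟨k, hk⟩ := ha
      have := (hu' k (s1 _ ((hF _).resolve_left hk))).2
      rwa [← Units.val_pow_eq_pow_val, Units.inv_mul_cancel_left, mul_zero] at this
  have ex : ∀ b : R, b ≠ 0 → ∃ a, l (a * b) ≠ 0 := fun b hb => by
    by_contra hh
    push Not at hh
    exact hb (D.nondeg fun a => by rw [mul_comm, hh])
  have hS : ∀ a b : R, Full (form l) M (a, b) → ∀ a', Full (form l) M (a', b) := by
    intro a b h a'
    by_cases hb : b = 0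
    · exact hb ▸ hE a'
    have s1 : ∀ a a', l ((a' - a) * b) ≠ 0 → Full (form l) M (a, b) → Full (form l) M (a', b) :=
      fun a a' s h => by simpa using (hE (a' - a)).add hM h (by simpa [form_apply] using s)
    by_cases s2 : l ((a' - a) * b) = 0
    · obtain ⟨c, hc⟩ := ex b hb
      refine s1 (a + c) a' ?_ (s1 a _ (by simpa using hc) h)
      rw [← sub_sub, sub_mul, map_sub, s2]; simpa using hc
    · exact s1 a a' s2 h
  rintro ⟨a, b⟩
  refine hS 0 b (all
    { carrier := {b | Full (form l) M (0, b)}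
      zero_mem' := full_zero
      add_mem' := fun {b b'} s t => ?_
      neg_mem' := fun s => by simpa using Full.neg s } hf
    (fun b hb => by simpa using (hu' 1 hb).2) b) a
  by_cases hb : b' = 0
  · simpa [hb] using s
  obtain ⟨c, hc⟩ := ex b' hb
  exact hS c _ (by simpa using (hS 0 b s c).add hM t (by simpa [form_apply] using hc)) 0

theorem sp_three (F : Type*) [Field F] [Fintype F] {n : ℕ} (hn : 2 ≤ n)
    (h22 : ¬ (n = 2 ∧ Fintype.card F = 2)) : ∃ u g h : Matrix.symplecticGroup (Fin n) F,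
    IsNilpotent ((u : Matrix (Fin n ⊕ Fin n) (Fin n ⊕ Fin n) F) - 1) ∧
    ((u : Matrix (Fin n ⊕ Fin n) (Fin n ⊕ Fin n) F) - 1) ^ (2 * n - 1) ≠ 0 ∧
    Subgroup.closure {u, g * u * g⁻¹, h * u * h⁻¹} = ⊤ := by
  obtain ⟨n, rfl⟩ := Nat.exists_eq_add_of_le' hn
  obtain ⟨l, D⟩ := exists_mod F (n + 1)
  have := D.finite
  obtain ⟨X, hX⟩ := IsNilpotent.isUnit_one_add ⟨_, D.zero⟩
  obtain ⟨ε, hε, g, hg, h, hh, H⟩ : ∃ ε : _ˣ, _ ^ (n + 1) * ε.1 = _ ^ (n + 1) ∧ Gen l X ε := by
    by_cases h2 : (2 : F) = 0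
    swap
    · exact ⟨1, mul_one _, gen_odd D hX h2⟩
    by_cases hq : Fintype.card F = 2
    swap
    · exact gen_even D hX h2 hq
    obtain ⟨n, rfl⟩ := Nat.exists_eq_succ_of_ne_zero (n := n) fun h => h22 ⟨by omega, hq⟩
    refine gen_two D hX fun c => ?_
    have := FiniteField.pow_card c
    rw [hq] at this
    grind
  obtain ⟨e, he⟩ := exists_isIso₂_spPQ (form l) (form_alt l) D.form_nondeg (m := n + 2)
    (by rw [D.finrank_prod]; ring)
  let Φ := (PQ.isomCongr he).trans (spEquiv (Fin (n + 2)) F).symm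
  have hi : ∀ g, g ∈ (ofAlt (form l) (form_alt l)).isom ↔ g ∈ spIso (form l) :=
    fun g => ofAlt_isIso _ _ _
  have hΦ : ∀ g v, matEquiv (Matrix.symplecticGroup _ F).subtype (Φ g) (e v) = e (g.1 v) :=
    fun g v => by
      have := congrArg (fun k => k.1 (e v)) ((spEquiv (Fin (n + 2)) F).apply_symm_apply
        (PQ.isomCongr he g))
      simp only [PQ.isomCongr_apply, e.symm_apply_apply] at this
      exact this
  let u : (ofAlt (form l) (form_alt l)).isom := ⟨_, (hi _).2 (ureg_mem l X ε)⟩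
  have hn : ∀ k v, (nil (matEquiv (Matrix.symplecticGroup _ F).subtype (Φ u)) ^ k) (e v) =
      e ((nil (ureg l X ε) ^ k) v) := fun k v => by
    induction k with
    | zero => rfl
    | succ k ih => rw [nil_pow_succ, nil_pow_succ, ih, nil_apply, nil_apply, hΦ, map_sub]
  refine ⟨Φ u, Φ ⟨g, (hi _).2 hg⟩, Φ ⟨h, (hi _).2 hh⟩, ⟨2 * (n + 1) + 1 + 1, ?_⟩, fun h0 => ?_, ?_⟩
  · refine (pow_eq_zero_iff_nil (Matrix.symplecticGroup _ F).subtype _ _).2 (LinearMap.ext fun v => ?_)
    obtain ⟨v, rfl⟩ := e.surjective v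
    simp [hn, D.reg' hX hε]
  · have h1 := hn (2 * (n + 1) + 1) (0, 1)
    rw [show 2 * (n + 2) - 1 = 2 * (n + 1) + 1 by omega] at h0
    rw [(pow_eq_zero_iff_nil (Matrix.symplecticGroup _ F).subtype _ _).1 h0, D.reg hX hε] at h1
    have h4 : AdjoinRoot.root (Polynomial.X ^ (n + 1 + 1) : Polynomial F) ^ (n + 1) ≠ 0 :=
      fun h => by simpa [h] using D.top
    simp [D.top, h4, eq_comm (a := (0 : Fin (n + 2) ⊕ Fin (n + 2) → F))] at h1
  · refine eq_top_iff.2 fun A _ => ?_
    obtain ⟨A, rfl⟩ := Φ.surjective A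
    have hM : ∀ Y : Subgroup (Matrix.symplecticGroup (Fin (n + 2)) F),
        (Y.comap Φ.toMonoidHom).map (Subgroup.subtype _) ≤ spIso (form l) := by
      rintro Y _ ⟨k, -, rfl⟩; exact (hi _).1 k.2
    obtain ⟨k, hk, e1⟩ := spIso_le_of_full (form_alt l) D.form_nondeg (hM (Subgroup.closure
      {Φ u, Φ ⟨g, (hi _).2 hg⟩ * Φ u * (Φ ⟨g, (hi _).2 hg⟩)⁻¹,
        Φ ⟨h, (hi _).2 hh⟩ * Φ u * (Φ ⟨h, (hi _).2 hh⟩)⁻¹})) (H _ (hM _)
      ⟨u, Subgroup.subset_closure (by simp), rfl⟩
      ⟨⟨g, (hi _).2 hg⟩ * u * (⟨g, (hi _).2 hg⟩ : (ofAlt (form l) (form_alt l)).isom)⁻¹,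
        Subgroup.subset_closure (by simp only [map_mul, map_inv]; simp), rfl⟩
      ⟨⟨h, (hi _).2 hh⟩ * u * (⟨h, (hi _).2 hh⟩ : (ofAlt (form l) (form_alt l)).isom)⁻¹,
        Subgroup.subset_closure (by simp only [map_mul, map_inv]; simp), rfl⟩)
      ((hi _).1 A.2)
    exact Subtype.ext e1 ▸ hk

end CfsgLib.RegUnip
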