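import Cfsg.Agent.Lib.RegUnip.SpCore

/-!
The symplectic space `R × R` over a truncated polynomial ring `R = F[ν]/(ν^(n+1))`, its Levi
elements, and a regular unipotent element.
-/

set_option autoImplicit false

namespace CfsgLib.RegUnip

open CfsgLib.ClMax Module

variable {F : Type*} [Field F] {R : Type*} [CommRing R] [Algebra F R]

/-- A truncated polynomial ring with its top coefficient. -/
structure Mod (ν : R) (l : R →ₗ[F] F) (n : ℕ) : Prop where
  zero : ν ^ (n + 1) = 0
  low : ∀ i < n, l (ν ^ i) = 0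
  top : l (ν ^ n) = 1
  dec : ∀ a : R, ∃ (c : F) (a' : R), a = c • 1 + ν * a'
  dim : finrank F R = n + 1

theorem exists_mod (F : Type*) [Field F] (n : ℕ) :
    ∃ l : AdjoinRoot (Polynomial.X ^ (n + 1) : Polynomial F) →ₗ[F] F, Mod (AdjoinRoot.root _) l n := by
  have hm : (Polynomial.X ^ (n + 1) : Polynomial F).Monic := Polynomial.monic_X_pow _
  let b := AdjoinRoot.powerBasis' hm
  have hd : b.dim = n + 1 := by simp [b]
  have hg : b.gen = AdjoinRoot.root _ := rfl
  refine ⟨b.basis.coord ⟨n, by omega⟩, ?_, fun i hi => ?_, ?_, fun a => ?_, b.finrank.trans hd⟩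
  · simpa using AdjoinRoot.eval₂_root (Polynomial.X ^ (n + 1) : Polynomial F)
  · rw [← hg, ← b.basis_eq_pow ⟨i, by omega⟩, Basis.coord_apply, Basis.repr_self]
    simp [hi.ne]
  · rw [← hg, ← b.basis_eq_pow ⟨n, by omega⟩, Basis.coord_apply, Basis.repr_self]
    simp
  · obtain ⟨p, rfl⟩ := AdjoinRoot.mk_surjective a
    refine ⟨p.coeff 0, AdjoinRoot.mk _ p.divX, ?_⟩
    conv_lhs => rw [← p.X_mul_divX_add, map_add, map_mul, AdjoinRoot.mk_X, AdjoinRoot.mk_C,
      add_comm]
    rw [Algebra.smul_def, mul_one]; rfl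

/-- The alternating form. -/
def form (l : R →ₗ[F] F) : LinearMap.BilinForm F (R × R) :=
  LinearMap.mk₂ F (fun v w => l (v.1 * w.2) - l (w.1 * v.2))
    (fun _ _ _ => by simp [add_mul, mul_add]; ring) (fun _ _ _ => by simp [mul_sub])
    (fun _ _ _ => by simp [add_mul, mul_add]; ring) (fun _ _ _ => by simp [mul_sub])

theorem form_apply (l : R →ₗ[F] F) (a b a' b' : R) :
    form l (a, b) (a', b') = l (a * b') - l (a' * b) := rfl

theorem form_alt (l : R →ₗ[F] F) : (form l).IsAlt := fun _ => sub_self _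

/-- Levi elements. -/
def levi (F : Type*) [Field F] [Algebra F R] : Rˣ →* ((R × R) ≃ₗ[F] (R × R)) where
  toFun r :=
    { toFun := fun v => (r * v.1, (r⁻¹ : Rˣ) * v.2)
      invFun := fun v => ((r⁻¹ : Rˣ) * v.1, r * v.2)
      map_add' := fun _ _ => by simp [mul_add]
      map_smul' := fun _ _ => by simp
      left_inv := fun _ => by simp
      right_inv := fun _ => by simp }
  map_one' := by ext v <;> simp
  map_mul' r s := by ext v <;> simp [mul_assoc, mul_left_comm]

theorem levi_apply (r : Rˣ) (a b : R) : levi F r (a, b) = (r * a, (r⁻¹ : Rˣ) * b) := rfl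

theorem levi_mem (l : R →ₗ[F] F) (r : Rˣ) : levi F r ∈ spIso (form l) := by
  rintro ⟨a, b⟩ ⟨a', b'⟩
  simp only [levi_apply, form_apply, mul_mul_mul_comm (r : R) _ (r⁻¹ : Rˣ), Units.mul_inv, one_mul]

/-- The interchange of the two Lagrangian subspaces. -/
def swap (F : Type*) [Field F] (R : Type*) [CommRing R] [Algebra F R] : (R × R) ≃ₗ[F] (R × R) where
  toFun v := (-v.2, v.1)
  invFun v := (v.2, -v.1)
  map_add' _ _ := by simp [add_comm]
  map_smul' _ _ := by simp
  left_inv _ := by simp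
  right_inv _ := by simp

theorem swap_apply (a b : R) : swap F R (a, b) = (-b, a) := rfl

theorem swap_mem (l : R →ₗ[F] F) : swap F R ∈ spIso (form l) := by
  rintro ⟨a, b⟩ ⟨a', b'⟩
  simp only [swap_apply, form_apply, neg_mul, map_neg, mul_comm b, mul_comm b']
  ring

theorem swap_levi (r : Rˣ) : swap F R * levi F r = levi F r⁻¹ * swap F R := by
  refine LinearEquiv.ext fun ⟨a, b⟩ => ?_
  simp only [LinearEquiv.mul_apply, swap_apply, levi_apply, inv_inv, mul_neg]

theorem mul_tv {V : Type*} [AddCommGroup V] [Module F V] {B : LinearMap.BilinForm F V}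
    (hA : B.IsAlt) {k : V ≃ₗ[F] V} (hk : k ∈ spIso B) (x : V) (d : F) :
    k * tv hA x d = tv hA (k x) d * k := by
  ext1 v
  simp only [LinearEquiv.mul_apply, tv_apply, map_add, map_smul, hk x v]

/-- The regular unipotent element. -/
def ureg (l : R →ₗ[F] F) (X ε : Rˣ) : (R × R) ≃ₗ[F] (R × R) :=
  levi F X * tv (form_alt l) (ε, 0) 1

variable (l : R →ₗ[F] F) (X ε : Rˣ)

theorem ureg_apply (a b : R) :
    ureg l X ε (a, b) = (X * (a + l (ε * b) • (ε : R)), (X⁻¹ : Rˣ) * b) := by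
  simp [ureg, tv_apply, form_apply, levi_apply]

theorem ureg_mem : ureg l X ε ∈ spIso (form l) := mul_mem (levi_mem l X) (tv_mem _ _ _)

/-- The third generator times the first is a product of two transvections. -/
theorem exists_third (φ : Rˣ) : ∃ h ∈ spIso (form l), h * ureg l X ε * h⁻¹ * ureg l X ε =
    tv (form_alt l) (0, φ) 1 * tv (form_alt l) (ε, 0) 1 := by
  have h1 := mul_mem (levi_mem l (X * ε * φ⁻¹)) (swap_mem l)
  refine ⟨_, h1, ?_⟩
  have h2 : (levi F (X * ε * φ⁻¹) * swap F R) ((ε : R), 0) = levi F X (0, φ) := by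
    rw [LinearEquiv.mul_apply, swap_apply, levi_apply, levi_apply, ← Units.val_mul, ← Units.val_mul,
      mul_right_comm, mul_inv_rev (_ * _), mul_comm ε⁻¹, inv_mul_cancel_right, mul_inv, inv_inv]
    simp
  have h3 : levi F (X * ε * φ⁻¹) * swap F R * levi F X =
      (levi F X)⁻¹ * (levi F (X * ε * φ⁻¹) * swap F R) := by
    rw [mul_assoc, swap_levi, ← mul_assoc, ← map_mul, mul_comm _ X⁻¹, map_mul, map_inv, mul_assoc]
  have h4 := mul_tv (form_alt l) h1 (ε, 0) 1
  have h5 := mul_tv (form_alt l) (levi_mem l X) (0, φ) 1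
  rw [h2] at h4
  rw [ureg, ← mul_assoc (_ * swap F R), h3, mul_assoc _⁻¹, h4, eq_mul_inv_of_mul_eq h5.symm]
  group

variable {l X ε} {M : Subgroup ((R × R) ≃ₗ[F] (R × R))}

/-- A second generator differing from the first by a scalar Levi element. -/
theorem tvIn_of_scalar {s : F} (hs : s ≠ 0) : ∃ g ∈ spIso (form l),
    ∀ M : Subgroup ((R × R) ≃ₗ[F] (R × R)), ureg l X ε ∈ M → g * ureg l X ε * g⁻¹ ∈ M →
      TvIn (form l) M (ε, 0) (s ^ 2 - 1) := by
  let r : Rˣ := Units.map (algebraMap F R : F →* R) (Units.mk0 s hs)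
  refine ⟨_, levi_mem l r, fun M h1 h2 => ⟨_, mul_mem (inv_mem h1) h2, fun v => ?_⟩⟩
  have h3 : levi F r ((ε : R), 0) = s • ((ε : R), 0) := by simp [levi_apply, r, Algebra.smul_def]
  rw [ureg, ← mul_assoc (levi F r), ← map_mul, mul_comm r, map_mul, mul_assoc (levi F X),
    mul_tv _ (levi_mem l r), mul_assoc (levi F X), mul_inv_cancel_right, mul_inv_rev, mul_assoc,
    inv_mul_cancel_left, LinearEquiv.mul_apply, LinearEquiv.coe_inv, LinearEquiv.symm_apply_eq, h3]
  simp only [tv_apply, map_add, map_smul, LinearMap.smul_apply, smul_eq_mul,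
    (form_alt l).self_eq_zero]
  module

variable {ν : R} {n : ℕ} (D : Mod ν l n)
include D

theorem Mod.top_mul (a : R) : ν ^ n * a = l (ν ^ n * a) • ν ^ n := by
  obtain ⟨c, a', rfl⟩ := D.dec a
  simp [mul_add, ← mul_assoc, ← pow_succ, D.zero, D.top]

theorem Mod.nondeg {a : R} (h : ∀ b, l (a * b) = 0) : a = 0 := by
  have key : ∀ j i, i + j = n + 1 → ∀ a, (∀ b, l (ν ^ i * a * b) = 0) → ν ^ i * a = 0 := by
    intro j
    induction j with
    | zero => rintro i rfl a _; rw [D.zero, zero_mul]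
    | succ j ih =>
      intro i hi a h
      obtain ⟨c, a', rfl⟩ := D.dec a
      have h1 := h (ν ^ j)
      rw [mul_right_comm, ← pow_add, show i + j = n by omega] at h1
      obtain rfl : c = 0 := by simpa [mul_add, ← mul_assoc, ← pow_succ, D.zero, D.top] using h1
      simp only [zero_smul, zero_add, ← mul_assoc, ← pow_succ] at h ⊢
      exact ih _ (by omega) a' h
  simpa using key (n + 1) 0 (by simp) a (by simpa using h)

theorem Mod.form_nondeg : (form l).Nondegenerate := by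
  rw [LinearMap.BilinForm.Nondegenerate,
    LinearMap.IsRefl.nondegenerate_iff_separatingLeft (form_alt l).isRefl]
  rintro ⟨a, b⟩ h
  rw [D.nondeg (a := a) fun c => by simpa [form_apply] using h (0, c),
    D.nondeg (a := b) fun c => by simpa [form_apply, mul_comm] using h (c, 0)]
  rfl

theorem Mod.sub_mem (S : AddSubgroup R) (h : ∀ i < n, ∀ c : F, c • ν ^ i ∈ S) (a : R) :
    a - l a • ν ^ n ∈ S := by
  have key : ∀ j i, i + j = n → ∀ a, ν ^ i * a - l (ν ^ i * a) • ν ^ n ∈ S := by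
    intro j
    induction j with
    | zero => intro i hi a; rw [show i = n from hi, ← D.top_mul, sub_self]; exact zero_mem _
    | succ j ih =>
      intro i hi a
      obtain ⟨c, a', rfl⟩ := D.dec a
      convert add_mem (h i (by omega) c) (ih (i + 1) (by omega) a') using 1
      simp [mul_add, D.low i (by omega), pow_succ, mul_assoc, add_sub_assoc]
  simpa using key n 0 (by simp) a

variable (hX : (X : R) = 1 + ν)
include hX

theorem Mod.top_X : ν ^ n * X = ν ^ n := by rw [hX, mul_add, ← pow_succ, D.zero, mul_one, add_zero]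

theorem Mod.top_X_inv (k : ℕ) : ν ^ n * ((X⁻¹ : Rˣ) : R) ^ k = ν ^ n := by
  induction k with
  | zero => simp
  | succ k ih =>
    rw [pow_succ, ← mul_assoc, ih]
    conv_lhs => rw [← D.top_X hX, Units.mul_inv_cancel_right]

theorem Mod.reg (hε : ν ^ n * ε = ν ^ n) (a b : R) : (nil (ureg l X ε) ^ (2 * n + 1)) (a, b) =
    (((-1) ^ n * l (ν ^ n * b)) • ν ^ n, 0) := by
  have h0 : ((X⁻¹ : Rˣ) : R) - 1 = -1 * ν * (X⁻¹ : Rˣ) := by
    linear_combination X.mul_inv - (X⁻¹ : Rˣ) * hX
  have h1 : ∀ k, ((nil (ureg l X ε) ^ k) (a, b)).2 = (-1 * ν * (X⁻¹ : Rˣ)) ^ k * b := fun k => by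
    induction k with
    | zero => simp
    | succ k ih =>
      rw [nil_pow_succ, nil_apply, ← Prod.mk.eta (p := (nil (ureg l X ε) ^ k) (a, b)), ureg_apply,
        Prod.snd_sub, ih, ← sub_one_mul, h0, ← mul_assoc, ← pow_succ']
  have h2 : ∀ k a, (nil (ureg l X ε) ^ k) (a, 0) = (ν ^ k * a, 0) := fun k a => by
    induction k with
    | zero => simp
    | succ k ih => rw [nil_pow_succ, ih, nil_apply, ureg_apply, hX]; simp; ring
  have h3 : (-1 * ν * (X⁻¹ : Rˣ)) ^ n * b = ((-1 : F) ^ n * l (ν ^ n * b)) • ν ^ n := by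
    rw [mul_assoc (-1), mul_pow, mul_pow, D.top_X_inv hX, mul_assoc, mul_smul, ← D.top_mul,
      Algebra.smul_def]
    simp
  rw [show 2 * n + 1 = n + 1 + n by ring, pow_add, End.mul_apply, nil_pow_succ',
    ← Prod.mk.eta (p := (nil (ureg l X ε) ^ n) (a, b)), h1, h3, nil_apply, ureg_apply,
    Prod.mk_sub_mk, mul_smul_comm, mul_smul_comm, mul_comm (ε : R), hε, mul_comm _ (ν ^ n),
    ← pow_one ((X⁻¹ : Rˣ) : R), D.top_X_inv hX, sub_self, h2, map_smul, D.top, smul_eq_mul, mul_one,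
    mul_sub, ← mul_assoc, D.top_X hX, mul_add, add_sub_cancel_left, mul_smul_comm, hε]

theorem Mod.reg' (hε : ν ^ n * ε = ν ^ n) : nil (ureg l X ε) ^ (2 * n + 1 + 1) = 0 := by
  refine LinearMap.ext fun ⟨a, b⟩ => ?_
  rw [nil_pow_succ, D.reg hX hε, nil_apply, ureg_apply]
  simp [mul_comm (X : R), D.top_X hX]

omit D in
/-- A second generator differing from the first by a transvection. -/
theorem tvIn_of_shift {g : (R × R) ≃ₗ[F] (R × R)} {s : R → R} {c : F}
    (hg : ∀ a b, g (a, b) = (a + s b, b))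
    (hs : ∀ b, s b = (1 + ν) * s ((1 + ν) * b) + (c * l (ν ^ n * ((1 + ν) * b))) • ((1 + ν) * ν ^ n))
    (h1 : ureg l X ε ∈ M) (h2 : g * ureg l X ε * g⁻¹ ∈ M) : TvIn (form l) M (ν ^ n, 0) c := by
  refine ⟨_, mul_mem (inv_mem h1) h2, fun v => ?_⟩
  obtain ⟨⟨a, b⟩, rfl⟩ := g.surjective v
  obtain ⟨b, rfl⟩ := (Units.mulLeft X).surjective b
  rw [LinearEquiv.mul_apply, LinearEquiv.coe_inv, LinearEquiv.symm_apply_eq, LinearEquiv.mul_apply,
    LinearEquiv.mul_apply, LinearEquiv.coe_inv, g.symm_apply_apply]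
  simp only [hg, ureg_apply, form_apply, Prod.smul_mk, Prod.mk_add_mk, Units.mulLeft_apply,
    Units.inv_mul_cancel_left, smul_zero, add_zero, mul_zero, map_zero, sub_zero]
  rw [hs b, hX, ← mul_smul_comm]
  congr 1
  ring

end CfsgLib.RegUnip
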